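import Mathlib
import Cfsg.Agent.H952.F4.Defs2

/-!
# Homomorphisms of covers of alternating groups to `GL₂` are trivial (helper163)
-/

set_option autoImplicit false

namespace Cfsg.Agent.H163.E6.Two

open Equiv

universe u v

section
variable {F : Type u} [Field F]

/-- `x² = 1` and `det x = 1` imply `x = ± 1`, characteristic not 2 -/
theorem eq_one_or_neg {x : Matrix (Fin 2) (Fin 2) F} (h2 : (2 : F) ≠ 0) (hx : x * x = 1) (hd : x.det = 1) :
    x = 1 ∨ x = -1 := by
  have h00 := congrFun (congrFun hx 0) 0
  have h01 := congrFun (congrFun hx 0) 1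
  have h10 := congrFun (congrFun hx 1) 0
  have h11 := congrFun (congrFun hx 1) 1
  simp only [Matrix.mul_apply, Fin.sum_univ_two, Matrix.one_apply_eq, ne_eq, zero_ne_one, one_ne_zero,
    not_false_eq_true, Matrix.one_apply_ne] at h00 h01 h10 h11
  rw [Matrix.det_fin_two] at hd
  set a := x 0 0 with ha
  set b := x 0 1 with hb
  set c := x 1 0 with hc
  set d := x 1 1 with hd'
  -- a d - b c = 1, a² + b c = 1, b (a + d) = 0, c (a + d) = 0, b c + d² = 1
  have had : a + d ≠ 0 := by
    intro h
    have h1 : d = -a := by linear_combination h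
    rw [h1] at hd
    have : (2 : F) = 0 := by linear_combination -hd - h00
    exact h2 this
  have hb0 : b = 0 := by
    have : b * (a + d) = 0 := by linear_combination h01
    exact (mul_eq_zero.1 this).resolve_right had
  have hc0 : c = 0 := by
    have : c * (a + d) = 0 := by linear_combination h10
    exact (mul_eq_zero.1 this).resolve_right had
  rw [hb0] at h00 hd
  have ha2 : (a - 1) * (a + 1) = 0 := by linear_combination h00
  have hade : a * d = 1 := by linear_combination hd
  rcases mul_eq_zero.1 ha2 with h | h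
  · left
    have ha1 : a = 1 := by linear_combination h
    rw [ha1, one_mul] at hade
    ext i j
    fin_cases i <;> fin_cases j
    · exact ha1
    · exact hb0
    · exact hc0
    · exact hade
  · right
    have ha1 : a = -1 := by linear_combination h
    rw [ha1] at hade
    have hd1 : d = -1 := by linear_combination -hade
    ext i j
    fin_cases i <;> fin_cases j
    · simpa using ha1
    · simpa using hb0
    · simpa using hc0
    · simpa using hd1

/-- characteristic 2: `x⁴ = 1` implies `x² = 1` -/
theorem sq_eq_one {x : Matrix (Fin 2) (Fin 2) F} (h2 : (2 : F) = 0) (hx : x * x * (x * x) = 1) : x * x = 1 := by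
  have h00 := congrFun (congrFun hx 0) 0
  have h11 := congrFun (congrFun hx 1) 1
  simp only [Matrix.mul_apply, Fin.sum_univ_two, Matrix.one_apply_eq] at h00 h11
  set a := x 0 0 with ha
  set b := x 0 1 with hb
  set c := x 1 0 with hc
  set d := x 1 1 with hd'
  have hsq : ∀ y : F, y * y = 0 → y = 0 := fun y h => mul_self_eq_zero.1 h
  have h1 : a * a + b * c - (c * b + d * d) = 0 := by
    apply hsq
    linear_combination h00 - h11 + (-(a * a + b * c) * (c * b + d * d) + (c * b + d * d) ^ 2) * h2
  have ht : a + d = 0 := by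
    apply hsq
    linear_combination h1 + (a * d + d * d) * h2
  have hq : a * b + b * d = 0 := by linear_combination b * ht
  have hr : c * a + d * c = 0 := by linear_combination c * ht
  have hp : a * a + b * c - 1 = 0 := by
    apply hsq
    linear_combination h00 - (a * b + b * d) * hr + (-(a * a + b * c) + 1) * h2
  have hs : c * b + d * d - 1 = 0 := by
    linear_combination hp - h1
  ext i j
  fin_cases i <;> fin_cases j
  · simp only [Fin.zero_eta, Matrix.mul_apply, Fin.sum_univ_two, Matrix.one_apply_eq]
    linear_combination hp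
  · simp only [Fin.zero_eta, Fin.mk_one, Matrix.mul_apply, Fin.sum_univ_two]
    rw [Matrix.one_apply_ne (by decide)]
    linear_combination hq
  · simp only [Fin.zero_eta, Fin.mk_one, Matrix.mul_apply, Fin.sum_univ_two]
    rw [Matrix.one_apply_ne (by decide)]
    linear_combination hr
  · simp only [Fin.mk_one, Matrix.mul_apply, Fin.sum_univ_two, Matrix.one_apply_eq]
    linear_combination hs

end

/-! ### elements of `A_n` -/

/-- the embedding of `A_m` in `A_n` -/
theorem exists_alt {m n : ℕ} (h : m ≤ n) : ∃ j : ↥(alternatingGroup (Fin m)) →* ↥(alternatingGroup (Fin n)),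
    Function.Injective j := by
  classical
  let f : Fin m ≃ Set.range (Fin.castLEEmb h) := Equiv.ofInjective _ (Fin.castLEEmb h).injective
  let e : Perm (Fin m) →* Perm (Fin n) := Equiv.Perm.extendDomainHom f
  have he : Function.Injective e := Equiv.Perm.extendDomainHom_injective f
  refine ⟨(e.comp (alternatingGroup (Fin m)).subtype).codRestrict _ fun a => ?_, ?_⟩
  · rw [Equiv.Perm.mem_alternatingGroup]
    show Equiv.Perm.sign ((a : Perm (Fin m)).extendDomain f) = 1
    rw [Equiv.Perm.sign_extendDomain]
    exact Equiv.Perm.mem_alternatingGroup.1 a.2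
  · intro a b hab
    exact Subtype.ext (he (congrArg Subtype.val hab))

open scoped commutatorElement in

/-- homomorphisms of a perfect central extension of `A_n` by a group of exponent 3 to `GL₂(F)` are trivial -/
theorem hom_eq_one {F : Type u} [Field F] {B : Type v} [Group B] (hB : commutator B = ⊤) {n : ℕ} (hn : 5 ≤ n)
    (hc : n ≠ 5 ∨ (2 : F) ≠ 0) (π : B →* ↥(alternatingGroup (Fin n))) (hs : Function.Surjective π)
    (hk : ∀ b, π b = 1 → b ∈ Subgroup.center B ∧ b ^ 3 = 1) (θ : B →* GL (Fin 2) F) : ∀ b, θ b = 1 := by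
  haveI hsim : IsSimpleGroup (alternatingGroup (Fin n)) := alternatingGroup.isSimpleGroup (by
    rw [Nat.card_eq_fintype_card, Fintype.card_fin]; exact hn)
  set N := θ.ker with hN
  have hNn : N.Normal := MonoidHom.normal_ker θ
  have hmap : (N.map π).Normal := hNn.map π hs
  rcases hsim.eq_bot_or_eq_top_of_normal _ hmap with h | h
  · exfalso
    have hN1 : ∀ b, θ b = 1 → π b = 1 := by
      intro b hb
      have : π b ∈ N.map π := ⟨b, hb, rfl⟩
      rw [h] at this
      exact Subgroup.mem_bot.1 this
    have hN3 : ∀ b, θ b = 1 → b ^ 3 = 1 := fun b hb => (hk b (hN1 b hb)).2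
    have hcen : ∀ b, π b = 1 → ∀ g, g * b = b * g := fun b hb => Subgroup.mem_center_iff.1 (hk b hb).1
    by_cases h2 : (2 : F) = 0
    · -- an element of order 4
      have hn6 : n ≠ 5 := by
        rcases hc with h | h
        · exact h
        · exact absurd h2 h
      have hn' : 6 ≤ n := by omega
      obtain ⟨c, hc4, hc2⟩ : ∃ c : ↥(alternatingGroup (Fin n)), c ^ 4 = 1 ∧ c ^ 2 ≠ 1 := by
        obtain ⟨j, hj⟩ := exists_alt hn'
        let c0 : ↥(alternatingGroup (Fin 6)) := ⟨swap 0 1 * swap 1 2 * swap 2 3 * swap 4 5, by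
          rw [Equiv.Perm.mem_alternatingGroup]; decide⟩
        refine ⟨j c0, ?_, ?_⟩
        · rw [← map_pow, show c0 ^ 4 = 1 from by decide, map_one]
        · intro h
          rw [← map_pow] at h
          exact absurd (hj (h.trans (map_one j).symm)) (by decide)
      obtain ⟨x, hx⟩ := hs c
      have hx4 : π (x ^ 4) = 1 := by rw [map_pow, hx, hc4]
      have hx12 : x ^ 12 = 1 := by
        rw [show 12 = 4 * 3 from rfl, pow_mul]
        exact (hk _ hx4).2
      have h9 : (x ^ 3) ^ 4 = 1 := by rw [← pow_mul]; exact hx12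
      have h10 : θ ((x ^ 3) ^ 2) = 1 := by
        apply Units.ext
        rw [map_pow, Units.val_pow_eq_pow_val, sq, Units.val_one]
        apply sq_eq_one h2
        have h11 := congrArg (fun y : B => ((θ y : GL (Fin 2) F) : Matrix (Fin 2) (Fin 2) F)) h9
        simp only [map_pow, Units.val_pow_eq_pow_val, map_one, Units.val_one] at h11
        rw [← h11, show 4 = 2 * 2 from rfl, pow_mul, sq, sq, map_pow, Units.val_pow_eq_pow_val]
      have h12 := hN1 _ h10
      rw [map_pow, map_pow, hx, ← pow_mul, show 3 * 2 = 4 + 2 from rfl, pow_add, hc4, one_mul] at h12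
      exact hc2 h12
    · -- a four-group
      obtain ⟨a, b, ha, hb, hab, ha1, hb1, hab1⟩ : ∃ a b : ↥(alternatingGroup (Fin n)), a * a = 1 ∧ b * b = 1 ∧
          a * b = b * a ∧ a ≠ 1 ∧ b ≠ 1 ∧ a * b ≠ 1 := by
        obtain ⟨j, hj⟩ := exists_alt hn
        let a0 : ↥(alternatingGroup (Fin 5)) := ⟨swap 0 1 * swap 2 3, by
          rw [Equiv.Perm.mem_alternatingGroup]; decide⟩
        let b0 : ↥(alternatingGroup (Fin 5)) := ⟨swap 0 2 * swap 1 3, by
          rw [Equiv.Perm.mem_alternatingGroup]; decide⟩
        have hj1 : ∀ x, x ≠ 1 → j x ≠ 1 := fun x hx h => hx (hj (h.trans (map_one j).symm))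
        refine ⟨j a0, j b0, ?_, ?_, ?_, hj1 _ (by decide), hj1 _ (by decide), ?_⟩
        · rw [← map_mul, show a0 * a0 = 1 from by decide, map_one]
        · rw [← map_mul, show b0 * b0 = 1 from by decide, map_one]
        · rw [← map_mul, ← map_mul, show a0 * b0 = b0 * a0 from by decide]
        · rw [← map_mul]
          exact hj1 _ (by decide)
      have hlift : ∀ c : ↥(alternatingGroup (Fin n)), c * c = 1 → ∃ x : B, π x = c ∧ x * x = 1 := by
        intro c hc
        obtain ⟨x, hx⟩ := hs c
        refine ⟨x ^ 3, by rw [map_pow, hx, pow_succ, sq, hc, one_mul], ?_⟩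
        have h1 : π (x ^ 2) = 1 := by rw [map_pow, hx, sq, hc]
        rw [← sq, ← pow_mul, mul_comm, pow_mul]
        exact (hk _ h1).2
      obtain ⟨x, hx, hx2⟩ := hlift a ha
      obtain ⟨y, hy, hy2⟩ := hlift b hb
      -- x y = c y x
      have hxy : x * y = y * x := by
        set c := x * y * x⁻¹ * y⁻¹ with hcdef
        have hc1 : π c = 1 := by
          rw [hcdef, map_mul, map_mul, map_mul, map_inv, map_inv, hx, hy, hab]
          group
        have hcc := hcen c hc1
        have hc3 := (hk c hc1).2
        have e1 : x * y = c * (y * x) := by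
          rw [hcdef]
          group
        have e2 : y = c * c * y := by
          calc y = x * (x * y) := by rw [← mul_assoc, hx2, one_mul]
            _ = x * (c * (y * x)) := by rw [e1]
            _ = c * (x * y) * x := by rw [← mul_assoc, hcc x]; group
            _ = c * (c * (y * x)) * x := by rw [e1]
            _ = c * c * y * (x * x) := by group
            _ = c * c * y := by rw [hx2, mul_one]
        have e3 : c * c = 1 := by
          have := e2
          nth_rewrite 1 [← one_mul y] at this
          exact (mul_right_cancel this).symm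
        have e4 : c = 1 := by
          rw [pow_succ, sq, e3, one_mul] at hc3
          exact hc3
        rw [e1, e4, one_mul]
      have hdet : ∀ g : B, ((θ g : GL (Fin 2) F) : Matrix (Fin 2) (Fin 2) F).det = 1 := by
        intro g
        have h1 : g ∈ ((Matrix.GeneralLinearGroup.det).comp θ).ker := by
          have h2 : commutator B ≤ ((Matrix.GeneralLinearGroup.det).comp θ).ker :=
            Abelianization.commutator_subset_ker _
          apply h2
          rw [hB]
          exact Subgroup.mem_top _
        have h3 : Matrix.GeneralLinearGroup.det (θ g) = 1 := h1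
        have h4 := congrArg Units.val h3
        exact h4
      have hpm : ∀ g : B, g * g = 1 → ((θ g : GL (Fin 2) F) : Matrix (Fin 2) (Fin 2) F) = 1 ∨
          ((θ g : GL (Fin 2) F) : Matrix (Fin 2) (Fin 2) F) = -1 := by
        intro g hg
        apply eq_one_or_neg h2 _ (hdet g)
        rw [← Units.val_mul, ← map_mul, hg, map_one, Units.val_one]
      have hno : ∀ g : B, g * g = 1 → π g ≠ 1 → ((θ g : GL (Fin 2) F) : Matrix (Fin 2) (Fin 2) F) = -1 := by
        intro g hg h1
        refine (hpm g hg).resolve_left fun h3 => h1 (hN1 g (Units.ext h3))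
      have k1 := hno x hx2 (by rw [hx]; exact ha1)
      have k2 := hno y hy2 (by rw [hy]; exact hb1)
      have k3 := hno (x * y) (by rw [mul_assoc, ← mul_assoc y, ← hxy, mul_assoc, hy2, mul_one, hx2])
        (by rw [map_mul, hx, hy]; exact hab1)
      rw [map_mul, Units.val_mul, k1, k2, neg_mul_neg, one_mul] at k3
      have k4 := congrFun (congrFun k3 0) 0
      rw [Matrix.one_apply_eq, Matrix.neg_apply, Matrix.one_apply_eq] at k4
      apply h2
      linear_combination k4
  · -- `N` maps onto `A_n`
    have h1 : commutator B ≤ N := by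
      rw [commutator_def, Subgroup.commutator_le]
      intro g _ g' _
      have key : ∀ g : B, ∃ m ∈ N, ∃ c ∈ Subgroup.center B, g = m * c := by
        intro g
        have h2 : π g ∈ N.map π := by rw [h]; exact Subgroup.mem_top _
        obtain ⟨m, hm, hmg⟩ := h2
        refine ⟨m, hm, m⁻¹ * g, (hk _ ?_).1, by group⟩
        rw [map_mul, map_inv, hmg, inv_mul_cancel]
      obtain ⟨m, hm, c, hcc, rfl⟩ := key g
      obtain ⟨m', hm', c', hcc', rfl⟩ := key g'
      have h3 : ⁅m * c, m' * c'⁆ = ⁅m, m'⁆ := by
        have q1 := Subgroup.mem_center_iff.1 hcc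
        have q2 := Subgroup.mem_center_iff.1 hcc'
        rw [commutatorElement_def, commutatorElement_def, mul_inv_rev, mul_inv_rev]
        calc m * c * (m' * c') * (c⁻¹ * m⁻¹) * (c'⁻¹ * m'⁻¹)
            = m * (c * (m' * c' * (c⁻¹ * m⁻¹))) * (c'⁻¹ * m'⁻¹) := by group
          _ = m * (m' * c' * (c⁻¹ * m⁻¹) * c) * (c'⁻¹ * m'⁻¹) := by rw [q1]
          _ = m * m' * (c' * (c⁻¹ * m⁻¹ * c * c'⁻¹)) * m'⁻¹ := by group
          _ = m * m' * (c⁻¹ * m⁻¹ * c * c'⁻¹ * c') * m'⁻¹ := by rw [q2]
          _ = m * m' * (c⁻¹ * (m⁻¹ * c)) * m'⁻¹ := by group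
          _ = m * m' * (c⁻¹ * (c * m⁻¹)) * m'⁻¹ := by rw [q1]
          _ = m * m' * m⁻¹ * m'⁻¹ := by group
      rw [h3, commutatorElement_def]
      exact N.mul_mem (N.mul_mem (N.mul_mem hm hm') (N.inv_mem hm)) (N.inv_mem hm')
    rw [hB] at h1
    exact fun b => h1 (Subgroup.mem_top b)

end Cfsg.Agent.H163.E6.Two
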