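import Mathlib
import Cfsg.Agent.H163.E6.Sit
import Cfsg.Agent.H163.E6.Two
import Cfsg.Agent.H333.E6Act
import Cfsg.Agent.H16.E6.Cov
import Cfsg.Agent.H65.E6Root

/-!
# The group `Bgrp φ` and the fields `no_three`, `no_six` of `Sit` (helper163)
-/

set_option autoImplicit false

namespace Cfsg.Agent.H163.E6

open Cfsg Cfsg.Lie Module
open Cfsg.Agent.ChevalleyStructure.E6Min.Tables Cfsg.Agent.ChevalleyStructure.E6Min.Basic
  Cfsg.Agent.ChevalleyStructure.E6Min.Adjoint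
open Cfsg.Agent.H952.F4 (ev es matRep sh cr tf MaxAlt)

universe u

section
variable {F : Type u} [Field F] {n : ℕ} {φ : ↥(alternatingGroup (Fin n)) →* ↥(chevE6.group F)}

theorem range_commutator (hn : 5 ≤ n) : ⁅φ.range, φ.range⁆ = φ.range := by
  have h1 := Cov.alt_perfect hn
  rw [commutator_def] at h1
  rw [MonoidHom.range_eq_map, ← Subgroup.map_commutator, h1]

/-- `Bgrp φ` is mapped onto the alternating group -/
theorem map_Bgrp (hn : 5 ≤ n) : (Bgrp φ).map (ad F) = φ.range := by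
  rw [Bgrp, Subgroup.map_commutator, Subgroup.map_comap_eq_self_of_surjective ad_surjective, range_commutator hn]

theorem exists_Bgrp (hn : 5 ≤ n) {g : ↥(Zgrp F)} (hg : ad F g ∈ φ.range) : ∃ b ∈ Bgrp φ, ad F b = ad F g := by
  rw [← map_Bgrp hn] at hg
  exact hg

open scoped commutatorElement in
theorem comm_le_self {G : Type*} [Group G] (P : Subgroup G) : ⁅P, P⁆ ≤ P := by
  rw [Subgroup.commutator_le]
  intro g hg h hh
  rw [commutatorElement_def]
  exact P.mul_mem (P.mul_mem (P.mul_mem hg hh) (P.inv_mem hg)) (P.inv_mem hh)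

theorem Bgrp_le : Bgrp φ ≤ φ.range.comap (ad F) := comm_le_self _

theorem ad_mem_of_Bgrp {b : ↥(Zgrp F)} (hb : b ∈ Bgrp φ) : ad F b ∈ φ.range := Bgrp_le hb

open scoped commutatorElement in
/-- `Bgrp φ` is perfect -/
theorem Bgrp_perfect (hn : 5 ≤ n) : ⁅Bgrp φ, Bgrp φ⁆ = Bgrp φ := by
  apply le_antisymm (comm_le_self _)
  conv_lhs => rw [Bgrp]
  rw [Subgroup.commutator_le]
  intro g hg g' hg'
  obtain ⟨b, hb, hbg⟩ := exists_Bgrp hn hg
  obtain ⟨b', hb', hbg'⟩ := exists_Bgrp hn hg'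
  have h1 : ad F (b⁻¹ * g) = 1 := by rw [map_mul, map_inv, hbg, inv_mul_cancel]
  have h2 : ad F (b'⁻¹ * g') = 1 := by rw [map_mul, map_inv, hbg', inv_mul_cancel]
  have q1 := Cov.ker_comm h1
  have q2 := Cov.ker_comm h2
  set c := b⁻¹ * g with hc
  set c' := b'⁻¹ * g' with hc'
  have e1 : g = b * c := by rw [hc]; group
  have e2 : g' = b' * c' := by rw [hc']; group
  have h3 : ⁅g, g'⁆ = ⁅b, b'⁆ := by
    rw [e1, e2, commutatorElement_def, commutatorElement_def, mul_inv_rev, mul_inv_rev]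
    calc b * c * (b' * c') * (c⁻¹ * b⁻¹) * (c'⁻¹ * b'⁻¹)
        = b * (c * (b' * c' * (c⁻¹ * b⁻¹))) * (c'⁻¹ * b'⁻¹) := by group
      _ = b * (b' * c' * (c⁻¹ * b⁻¹) * c) * (c'⁻¹ * b'⁻¹) := by rw [q1]
      _ = b * b' * (c' * (c⁻¹ * b⁻¹ * c * c'⁻¹)) * b'⁻¹ := by group
      _ = b * b' * (c⁻¹ * b⁻¹ * c * c'⁻¹ * c') * b'⁻¹ := by rw [q2]
      _ = b * b' * (c⁻¹ * (b⁻¹ * c)) * b'⁻¹ := by group
      _ = b * b' * (c⁻¹ * (c * b⁻¹)) * b'⁻¹ := by rw [q1]
      _ = b * b' * b⁻¹ * b'⁻¹ := by group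
  rw [h3]
  exact Subgroup.commutator_mem_commutator hb hb'

/-- an element with trivial image acts by a scalar -/
theorem exists_smul {z : ↥(Zgrp F)} (hz : ad F z = 1) {ρ : Representation F ↥(Zgrp F) (I27 → F)}
    (hρ : ρ = V F ∨ ρ = V' F) : ∃ d : F, ∀ w, ρ z w = d • w := by
  rcases hρ with rfl | rfl
  · obtain ⟨c, -, hc⟩ := (Act.ad_eq_one_iff z).1 hz
    refine ⟨c, fun w => ?_⟩
    rw [V_apply, hc, Act.coe_scal, Matrix.smul_mulVec, Matrix.one_mulVec]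
  · have h1 : ad F (Act.gz z) = 1 := by
      have h2 := Cov.ker_comm hz
      have h3 : Act.gz z ∈ (ad F).ker := by
        rw [ker_ad, Subgroup.mem_center_iff]
        intro g
        have h4 := congrArg Act.gz (h2 (Act.gz g))
        rw [Act.gz_mul, Act.gz_mul, Act.gz_gz] at h4
        exact h4
      exact h3
    obtain ⟨c, -, hc⟩ := (Act.ad_eq_one_iff (Act.gz z)).1 h1
    refine ⟨c, fun w => ?_⟩
    rw [← Act.V_gz, V_apply, hc, Act.coe_scal, Matrix.smul_mulVec, Matrix.one_mulVec]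

theorem rho_mul (ρ : Representation F ↥(Zgrp F) (I27 → F)) (g h : ↥(Zgrp F)) (w : I27 → F) :
    ρ (g * h) w = ρ g (ρ h w) := by
  rw [map_mul]
  rfl

/-- stability under `Bgrp φ` gives stability under the whole preimage -/
theorem stab_of_Bgrp {ρ : Representation F ↥(Zgrp F) (I27 → F)} (hρ : ρ = V F ∨ ρ = V' F) (hn : 5 ≤ n)
    {W : Submodule F (I27 → F)} (hW : ∀ b ∈ Bgrp φ, ∀ w ∈ W, ρ b w ∈ W) : Stab ρ φ.range W := by
  intro g hg w hw
  obtain ⟨b, hb, hbg⟩ := exists_Bgrp hn hg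
  obtain ⟨d, hd⟩ := exists_smul (z := g * b⁻¹) (by rw [map_mul, map_inv, hbg, mul_inv_cancel]) hρ
  have h1 : ρ g w = d • ρ b w := by
    rw [← hd, ← rho_mul, inv_mul_cancel_right]
  rw [h1]
  exact W.smul_mem _ (hW b hb w hw)

/-- stability under a lift gives stability under the whole preimage -/
theorem stab_of_lift {ρ : Representation F ↥(Zgrp F) (I27 → F)} (hρ : ρ = V F ∨ ρ = V' F)
    {ψ : ↥(alternatingGroup (Fin n)) →* ↥(Zgrp F)} (hψ : Lift φ ψ) {W : Submodule F (I27 → F)}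
    (hW : ∀ a, ∀ w ∈ W, ρ (ψ a) w ∈ W) : Stab ρ φ.range W := by
  rintro g ⟨a, ha⟩ w hw
  obtain ⟨d, hd⟩ := exists_smul (z := g * (ψ a)⁻¹) (by rw [map_mul, map_inv, hψ a, ha, mul_inv_cancel]) hρ
  have h1 : ρ g w = d • ρ (ψ a) w := by
    rw [← hd, ← rho_mul, inv_mul_cancel_right]
  rw [h1]
  exact W.smul_mem _ (hW a w hw)

/-- `Bgrp φ` has no non-trivial 2-dimensional representation -/
theorem Bgrp_two {E : Type*} [Field E] (hn : 5 ≤ n) (hφ : Function.Injective φ) (hc : n ≠ 5 ∨ (2 : E) ≠ 0)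
    (θ : ↥(Bgrp φ) →* GL (Fin 2) E) : ∀ b, θ b = 1 := by
  have hcomm : commutator ↥(Bgrp φ) = ⊤ := by
    have h1 := Bgrp_perfect (φ := φ) hn
    have h2 : (commutator ↥(Bgrp φ)).map (Bgrp φ).subtype = (⊤ : Subgroup ↥(Bgrp φ)).map (Bgrp φ).subtype := by
      rw [commutator_def, Subgroup.map_commutator, ← MonoidHom.range_eq_map, Subgroup.range_subtype, h1]
    exact Subgroup.map_injective (Subgroup.subtype_injective _) h2
  have hle : Bgrp φ ≤ φ.range.comap (ad F) := Bgrp_le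
  let π : ↥(Bgrp φ) →* ↥(alternatingGroup (Fin n)) := (Cov.pr hφ).comp (Subgroup.inclusion hle)
  have hπ : ∀ b : ↥(Bgrp φ), φ (π b) = ad F b := fun b => Cov.phi_pr hφ _
  refine Two.hom_eq_one hcomm hn hc π ?_ ?_ θ
  · intro a
    obtain ⟨b, hb, hba⟩ : ∃ b ∈ Bgrp φ, ad F b = φ a := by
      have : φ a ∈ (Bgrp φ).map (ad F) := by rw [map_Bgrp hn]; exact ⟨a, rfl⟩
      exact this
    exact ⟨⟨b, hb⟩, hφ (by rw [hπ]; exact hba)⟩
  · intro b hb
    have h1 : ad F b = 1 := by rw [← hπ, hb, map_one]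
    refine ⟨?_, ?_⟩
    · rw [Subgroup.mem_center_iff]
      intro g
      exact Subtype.ext (Cov.ker_comm h1 _)
    · exact Subtype.ext (Cov.ker_pow h1)

/-- the field `no_add` of `Sit` -/
def NoAdd (φ : ↥(alternatingGroup (Fin n)) →* ↥(chevE6.group F)) : Prop :=
  ∀ a : (I27 → F) →ₗ[F] (I27 → F), a ≠ 0 → (∀ x, a (a x) = 0) →
    (∀ t : F, ∃ g : ↥(Zgrp F), (∀ x, V F g x = x + t • a x) ∧ ∀ b, φ b * ad F g = ad F g * φ b) → False

theorem V_injective {g h : ↥(Zgrp F)} (H : ∀ x, V F g x = V F h x) : g = h := by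
  apply Subtype.ext
  apply Units.ext
  apply Matrix.toLin'.injective
  exact LinearMap.ext H

theorem false_of_root (hn : 5 ≤ n) (hadd : NoAdd φ) {m : (I27 → F) →ₗ[F] (I27 → F)} (h1 : m ≠ 0)
    (h2 : ∀ x, m (m x) = 0) (h3 : ∀ t : F, ∃ z : ↥(Zgrp F), ∀ x, V F z x = x + t • m x)
    (h4 : ∀ b ∈ Bgrp φ, ∀ x, V F b (m x) = m (V F b x)) : False := by
  refine hadd m h1 h2 fun t => ?_
  obtain ⟨z, hz⟩ := h3 t
  refine ⟨z, hz, fun a => ?_⟩
  obtain ⟨b, hb, hba⟩ : ∃ b ∈ Bgrp φ, ad F b = φ a := by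
    have : φ a ∈ (Bgrp φ).map (ad F) := by rw [map_Bgrp hn]; exact ⟨a, rfl⟩
    exact this
  have h5 : b * z = z * b := by
    apply V_injective
    intro x
    rw [rho_mul, rho_mul, hz, hz, map_add, map_smul, h4 b hb]
  rw [← hba, ← map_mul, h5, map_mul]

theorem no_three_of_add (hn : 5 ≤ n) (hφ : Function.Injective φ) (hadd : NoAdd φ) (hc : n ≠ 5 ∨ (2 : F) ≠ 0)
    (ρ : Representation F ↥(Zgrp F) (I27 → F)) (hρ : ρ = V F ∨ ρ = V' F) (W : Submodule F (I27 → F))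
    (hst : Stab ρ φ.range W) (h3 : finrank F ↥W = 3) : ¬ TS W := by
  intro hW
  obtain ⟨m, h1, h2, h3, h4⟩ := H65.E6Root.three_root ρ hρ (B := Bgrp φ) (Bgrp_two hn hφ hc) h3 hW
    fun b hb w hw => hst b (ad_mem_of_Bgrp hb) w hw
  exact false_of_root hn hadd h1 h2 h3 h4

theorem no_six_of_add (hn : 5 ≤ n) (hadd : NoAdd φ)
    (ρ : Representation F ↥(Zgrp F) (I27 → F)) (hρ : ρ = V F ∨ ρ = V' F) (W : Submodule F (I27 → F))
    (hst : Stab ρ φ.range W) (h6 : finrank F ↥W = 6) : ¬ TS W := by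
  intro hW
  obtain ⟨m, h1, h2, h3, h4⟩ := H65.E6Root.six_root ρ hρ (B := Bgrp φ) (Bgrp_perfect hn) h6 hW
    fun b hb w hw => hst b (ad_mem_of_Bgrp hb) w hw
  exact false_of_root hn hadd h1 h2 h3 h4

/-- `no_add` from the centralizer -/
theorem noAdd_of_cent (hcent : ∀ z : ↥(chevE6.group F), (∀ a, φ a * z = z * φ a) → z = 1) : NoAdd φ := by
  intro a ha h2 h
  obtain ⟨g, hg, hgc⟩ := h 1
  have h1 : ad F g = 1 := hcent _ hgc
  obtain ⟨d, hd⟩ := exists_smul h1 (Or.inl rfl : V F = V F ∨ V F = V' F)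
  apply ha
  have h3 : ∀ x, a x = (d - 1) • x := by
    intro x
    have h4 := hg x
    rw [hd, one_smul] at h4
    rw [sub_smul, one_smul, h4]
    abel
  have h5 : d - 1 = 0 := by
    have h6 := h2 (Pi.single 0 1)
    rw [h3, h3, smul_smul] at h6
    have h7 := congrFun h6 0
    simp only [Pi.smul_apply, Pi.single_eq_same, smul_eq_mul, mul_one, Pi.zero_apply] at h7
    exact mul_self_eq_zero.1 h7
  apply LinearMap.ext
  intro x
  rw [h3, h5, zero_smul, LinearMap.zero_apply]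

end

end Cfsg.Agent.H163.E6
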