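import Mathlib
import Cfsg.Agent.H163.E6.Sit

/-!
# The property `Cen` (helper163): centre of the centralizer of an element of order 3 of type `D₄T₂`
-/

set_option autoImplicit false

namespace Cfsg.Agent.H163.E6

open Cfsg Cfsg.Lie Module
open Cfsg.Agent.ChevalleyStructure.E6Min.Tables Cfsg.Agent.ChevalleyStructure.E6Min.Basic
  Cfsg.Agent.ChevalleyStructure.E6Min.Adjoint
open Cfsg.Agent.H952.F4 (ev es matRep sh cr tf MaxAlt)

universe u

variable {F : Type u} [Field F]

/-- if `H` stabilizes the line of `X ≠ 0` in the Lie algebra then for every element `x` of order 3 of type `D₄T₂` in the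
preimage of the alternating group, `H` contains the image of an involution in the centre of the centralizer of `x` -/
def Cen {n : ℕ} (H : Subgroup ↥(chevE6.group F)) (φ : ↥(alternatingGroup (Fin n)) →* ↥(chevE6.group F)) : Prop :=
  ∀ X : chevE6.Idx → F, X ≠ 0 → (∀ h ∈ H, ∃ c : F, LK F h X = c • X) →
    ∀ x : ↥(Zgrp F), ad F x ∈ φ.range → x ^ 3 = 1 → ev (V F x) 1 = 9 → ev (L F x) 1 = 30 →
      ∃ τ : ↥(Zgrp F), τ * τ = 1 ∧ τ ≠ 1 ∧ τ * x = x * τ ∧ ad F τ ∈ H

end Cfsg.Agent.H163.E6
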