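import Mathlib
import Cfsg.Agent.H163.E6.Bgrp
import Cfsg.Agent.H927.E6Cnt

/-!
# `Sit` and `Small` for maximal subgroups of `E₆(q)` (helper163)
-/

set_option autoImplicit false

namespace Cfsg.Agent.H163.E6

open Cfsg Cfsg.Lie Module
open Cfsg.Agent.ChevalleyStructure.E6Min.Tables Cfsg.Agent.ChevalleyStructure.E6Min.Basic
  Cfsg.Agent.ChevalleyStructure.E6Min.Adjoint
open Cfsg.Agent.H952.F4 (ev es matRep sh cr tf MaxAlt)

universe u

section
variable {F : Type u} [Field F] {H : Subgroup ↥(chevE6.group F)} {n : ℕ}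
  {φ : ↥(alternatingGroup (Fin n)) →* ↥(chevE6.group F)}

theorem Sit.of_max [Finite F] (hM : MaxAlt H n φ) (hn : 5 ≤ n) (hn' : n ≤ 12) : Sit H n φ := by
  have hcent : ∀ z : ↥(chevE6.group F), (∀ a, φ a * z = z * φ a) → z = 1 := fun z hz =>
    Cnt.centralizer_eq hM hn hz
  have hadd : NoAdd φ := noAdd_of_cent hcent
  exact
    { inj := hM.inj
      le := hM.le
      norm := hM.norm
      sq := hM.sq
      card := hM.card
      five := hM.five
      cent := fun h _ hh => hcent h hh
      no_fixed := fun ψ hψ => Cnt.no_fixed hM hn hn' hψ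
      no_line := by
        rintro ρ (rfl | rfl) W hW
        · exact Cnt.no_line hM hn hn' (Or.inl hW)
        · exact Cnt.no_line hM hn hn' (Or.inr hW)
      no_three := fun hc ρ hρ W hst h3 => no_three_of_add hn hM.inj hadd hc ρ hρ W hst h3
      no_three_ext := by
        intro hc _ E _ _ f hE ρ hρ W hst h3 hW
        have hc' : n ≠ 5 ∨ (2 : E) ≠ 0 := by
          rcases hc with h | h
          · exact Or.inl h
          · refine Or.inr fun h2 => h ?_
            apply f.injective
            rw [map_ofNat, map_zero]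
            exact h2
        obtain ⟨z, hz, hzc⟩ := Sing.three_ext f hE (H65.E6Emb.emb f) (H65.E6Emb.V_emb f) ρ hρ (B := Bgrp φ)
          (Bgrp_two hn hM.inj hc') h3 hW fun b hb w hw => hst b (ad_mem_of_Bgrp hb) w hw
        apply hz
        apply hcent
        intro a
        obtain ⟨b, hb, hba⟩ : ∃ b ∈ Bgrp φ, ad F b = φ a := by
          have : φ a ∈ (Bgrp φ).map (ad F) := by rw [map_Bgrp hn]; exact ⟨a, rfl⟩
          exact this
        rw [← hba, ← map_mul, hzc b hb, map_mul]
      no_six := fun ρ hρ W hst h6 => no_six_of_add hn hadd ρ hρ W hst h6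
      no_add := hadd }

theorem Small.of_max [Finite F] (hM : MaxAlt H n φ) (hn : 5 ≤ n) (hn' : n ≤ 12)
    (hq : 6 * Nat.card ↥H ≤ Nat.card F ^ 6) : Small H := by
  rintro ρ (rfl | rfl) W hW h1
  · exact Cnt.no_small hM hn hn' hq (Or.inl hW) h1
  · exact Cnt.no_small hM hn hn' hq (Or.inr hW) h1

end

end Cfsg.Agent.H163.E6
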