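import Mathlib
import Cfsg.Agent.H163.E6.Sit

/-!
# The semilinear structure in the twisted case (helper163)

`Semi q φ` : the semilinear bijection `J : V ↔ V'` commuting with `Bgrp φ` (only for `²E₆(q)`; proved by helper944's
`E6TwC`). `FixSym φ` : a weak consequence (helper879).
-/

set_option autoImplicit false

namespace Cfsg.Agent.H163.E6

open Cfsg Cfsg.Lie Module
open Cfsg.Agent.ChevalleyStructure.E6Min.Tables Cfsg.Agent.ChevalleyStructure.E6Min.Basic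
  Cfsg.Agent.ChevalleyStructure.E6Min.Adjoint
open Cfsg.Agent.H952.F4 (ev es matRep sh cr tf MaxAlt)

universe u

variable {F : Type u} [Field F]

/-- a subset of `Bgrp φ` has a non-zero fixed vector in `V` if and only if it has one in `V'` -/
def FixSym {A : Type*} [Group A] (φ : A →* ↥(chevE6.group F)) : Prop :=
  ∀ S : Set ↥(Zgrp F), S ⊆ Bgrp φ →
    ((∃ v, v ≠ 0 ∧ ∀ g ∈ S, V F g v = v) → ∃ w, w ≠ 0 ∧ ∀ g ∈ S, V' F g w = w) ∧
    ((∃ v, v ≠ 0 ∧ ∀ g ∈ S, V' F g v = v) → ∃ w, w ≠ 0 ∧ ∀ g ∈ S, V F g w = w)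

/-- the semilinear map exchanging `V` and `V'` -/
def Semi (q : ℕ) {A : Type*} [Group A] (φ : A →* ↥(chevE6.group F)) : Prop :=
  ∃ J : (I27 → F) → (I27 → F), (∀ x y, J (x + y) = J x + J y) ∧ (∀ (c : F) x, J (c • x) = c ^ q • J x) ∧
    (∀ x, J (J x) = x) ∧ (∀ x, sh (J x) = J (sh x)) ∧ (∀ x y, cr (J x) (J y) = J (cr x y)) ∧
    (∀ x y, tf (J x) (J y) = tf x y ^ q) ∧ (∀ x, cubicT (J x) = cubicT x ^ q) ∧
    ∀ g ∈ Bgrp φ, ∀ x, V F g (J x) = J (V' F g x) ∧ V' F g (J x) = J (V F g x)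

theorem Semi.fixSym {q : ℕ} {A : Type*} [Group A] {φ : A →* ↥(chevE6.group F)} (h : Semi q φ) : FixSym φ := by
  obtain ⟨J, hadd, hsmul, hJ, -, -, -, -, hV⟩ := h
  have h0 : J 0 = 0 := by
    have := hadd 0 0
    rw [add_zero] at this
    exact left_eq_add.1 this
  have hne : ∀ x, x ≠ 0 → J x ≠ 0 := fun x hx h => hx (by rw [← hJ x, h, h0])
  refine fun S hS => ⟨?_, ?_⟩
  · rintro ⟨v, hv, hf⟩
    refine ⟨J v, hne v hv, fun g hg => ?_⟩
    rw [(hV g (hS hg) v).2, hf g hg]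
  · rintro ⟨v, hv, hf⟩
    refine ⟨J v, hne v hv, fun g hg => ?_⟩
    rw [(hV g (hS hg) v).1, hf g hg]

end Cfsg.Agent.H163.E6
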