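import Mathlib
import Cfsg.Agent.H163.E6.Sit
import Cfsg.Agent.H163.E6.Semi
import Cfsg.Agent.H906.E6.SixC
import Cfsg.Agent.H65.SixBoth
import Cfsg.Agent.H905.SixC.CrTy
import Cfsg.Agent.H288.E6.C6Full
import Cfsg.Agent.H401.SixUq
import Cfsg.Agent.H401.SixLast

/-!
# S5927, S5928: the three-fold cover of the alternating group of degree 6 in characteristic 2 (helper163)

The assembly of the boxes of helper958's plan.
-/

set_option autoImplicit false

namespace Cfsg.Agent.H163.E6.Cases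

open Cfsg Cfsg.Lie Module
open Cfsg.Agent.ChevalleyStructure.E6Min.Tables Cfsg.Agent.ChevalleyStructure.E6Min.Basic
  Cfsg.Agent.ChevalleyStructure.E6Min.Adjoint
open Cfsg.Agent.H163.E6 Cfsg.Agent.H163.E6.SixC Cfsg.Agent.H958.SixC

universe u

variable {F : Type u} [Field F] [Finite F] [CharP F 2] {H : Subgroup ↥(chevE6.group F)}
  {φ : ↥(alternatingGroup (Fin 6)) →* ↥(chevE6.group F)}

theorem sixc_two' (hS : Sit H 6 φ)
    (hs : (Nat.card ↥H = 360 ∧ Small H) ∨ (∃ h ∈ H, h ∉ φ.range) ∨ ∃ q, Twist q φ ∧ Semi q φ)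
    {ω : Fˣ} (hω : Cover φ ω) : False := by
  rcases hs with ⟨hc, hsm⟩ | hs
  · obtain ⟨ρ, hρ, W, hW, h3⟩ := Cfsg.Agent.H906.E6.SixC.exists_three hS.inj hω
    have hcr : Nat.card ↥φ.range = 360 := by
      rw [← Nat.card_congr (MonoidHom.ofInjective hS.inj).toEquiv, nat_card_alternatingGroup,
        Nat.card_eq_fintype_card, Fintype.card_fin]
      rfl
    have hfin : Finite ↥H := Nat.finite_of_card_ne_zero (by omega)
    have hH : φ.range = H := by
      have : Finite (H : Set ↥(chevE6.group F)) := hfin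
      exact Subgroup.eq_of_le_of_card_ge hS.le (by omega)
    have := hsm ρ hρ W (by rw [← hH]; exact hW) (by omega)
    omega
  · obtain ⟨ζ, z, g₁, g₂, β, t, a, hF, hζ, hz, h1, h2⟩ := exists_full hS.inj hω
    obtain ⟨hW₁, hW₂, hS₁, hS₂, he, he'⟩ := both_of hS hω hF hζ (fun hp _ h => cr_ty hS hω hF hζ hp h)
      (fun hp _ h => cr_ty hS hω hF.symm hζ hp h) hs hz h1 h2
    exact Cfsg.Agent.H401.SixLast.last (boxR_all F _) hS hω hF hζ (fun hp _ h => cr_ty hS hω hF hζ hp h)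
      (fun hp _ h => cr_ty hS hω hF.symm hζ hp h) hW₁ hW₂ hS₁ hS₂ he he'

end Cfsg.Agent.H163.E6.Cases
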