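import Mathlib
import Cfsg.Agent.H163.E6.OfMax
import Cfsg.Agent.H163.E6.Cen
import Cfsg.Agent.H163.E6.Semi
import Cfsg.Agent.H163.E6.SixcTwo
import Cfsg.Agent.H710.E6C.Cases
import Cfsg.Agent.H710.E6C.CasesSix
import Cfsg.Agent.H952.E6FiveFive
import Cfsg.Agent.H952.E6SevencTwo
import Cfsg.Agent.H882.E6FiveW
import Cfsg.Agent.H882.E6Thirty
import Cfsg.Agent.H931.E6.Cases
import Cfsg.Agent.H500.E6.Big
import Cfsg.Agent.H905.E6T.Wrap
import Cfsg.Agent.H882.E6BigTwo
import Cfsg.Agent.H401.E6SixThree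
import Cfsg.Agent.H879.E6.SevenFive
import Cfsg.Agent.H905.E6T.BigEight
import Cfsg.Agent.H16.E6.CovOdd
import Cfsg.Agent.H710.E6C.ExXAll

/-!
# S5927, S5928: the case distinction (helper163)
-/

set_option autoImplicit false

namespace Cfsg.Agent.H163.E6

open Cfsg Cfsg.Lie Module
open Cfsg.Agent.ChevalleyStructure.E6Min.Tables Cfsg.Agent.ChevalleyStructure.E6Min.Basic
  Cfsg.Agent.ChevalleyStructure.E6Min.Adjoint
open Cfsg.Agent.H952.F4 (ev es matRep sh cr tf MaxAlt tr1)

universe u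

variable {F : Type u} [Field F] [Finite F] {H : Subgroup ↥(chevE6.group F)} {n : ℕ}
  {φ : ↥(alternatingGroup (Fin n)) →* ↥(chevE6.group F)}

theorem main (p : ℕ) [Fact p.Prime] [CharP F p] (hn : 5 ≤ n) (hn' : n ≤ 12) (hS : Sit H n φ)
    (hx : MaxAlt H n φ ∨ FixSym φ)
    (hcen : ∀ ω : Fˣ, Cover φ ω → 5 ≤ p → Cen H φ)
    (hs : p = 2 → n = 6 → (∃ ω : Fˣ, Cover φ ω) →
      (Nat.card ↥H = 360 ∧ Small H) ∨ (∃ h ∈ H, h ∉ φ.range) ∨ ∃ q, Twist q φ ∧ Semi q φ) :
    n = 6 ∧ 7 ≤ p := by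
  have hp : p.Prime := Fact.out
  have h3 : (3 : F) = 0 ↔ p = 3 := by
    have h := CharP.cast_eq_zero_iff F p 3
    push_cast at h
    rw [h, Nat.prime_dvd_prime_iff_eq hp Nat.prime_three]
  have hlift := Cov.exists_lift (φ := φ) hn hS.inj
  have hcp : p = 2 ∨ p = 3 ∨ p = 5 ∨ 7 ≤ p := by
    have := hp.two_le
    by_contra h
    push Not at h
    obtain ⟨h1, h2, h3, h4⟩ := h
    have h5 : p = 4 ∨ p = 6 := by omega
    rcases h5 with rfl | rfl <;> revert hp <;> decide
  by_cases hn5 : n = 5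
  · subst hn5
    exfalso
    rcases hcp with rfl | rfl | rfl | h7
    · exact Cases.five_two hS
    · exact Cases.five_three hS
    · exact Cases.five_five hS
    · exact Cases.five_big p h7 hS
  by_cases hn6 : n = 6
  · subst hn6
    refine ⟨rfl, ?_⟩
    rcases hcp with rfl | rfl | rfl | h7
    · exfalso
      rcases hlift with ⟨ψ, hψ⟩ | ⟨-, -, ω, hω⟩
      · exact Cases.six_two hS hψ
      · exact Cases.sixc_two' hS (hs rfl rfl ⟨ω, hω⟩) hω
    · exfalso
      rcases hlift with ⟨ψ, hψ⟩ | ⟨-, h, -⟩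
      · exact Cases.six_three hS hψ
      · exact h (h3.2 rfl)
    · exfalso
      rcases hlift with ⟨ψ, hψ⟩ | ⟨-, -, ω, hω⟩
      · exact Cases.six_five hS hψ
      · exact Cov.cov_odd (Or.inl rfl) hS (hcen ω hω le_rfl) (Cov.exists_X 5 le_rfl (Or.inl rfl) hS hω) hω
    · exact h7
  exfalso
  by_cases hn7 : n = 7
  · subst hn7
    rcases hlift with ⟨ψ, hψ⟩ | ⟨-, h, ω, hω⟩
    · rcases hcp with rfl | rfl | rfl | h7
      · exact Cases.seven_two hS hψ
      · exact Cases.seven_three hS hψ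
      · exact Cases.seven_five hS hx hψ
      · by_cases h77 : p = 7
        · subst h77
          exact Cases.seven_seven hS hψ
        · have h11 : 11 ≤ p := by
            by_contra hlt
            have : p = 8 ∨ p = 9 ∨ p = 10 := by omega
            rcases this with rfl | rfl | rfl <;> revert hp <;> decide
          exact Cases.seven_big p h11 hS hψ
    · rcases hcp with rfl | rfl | rfl | h7
      · exact Cases.sevenc_two hS hω
      · exact h (h3.2 rfl)
      · exact Cov.cov_odd (Or.inr rfl) hS (hcen ω hω le_rfl) (Cov.exists_X 5 le_rfl (Or.inr rfl) hS hω) hω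
      · exact Cov.cov_odd (Or.inr rfl) hS (hcen ω hω (by omega)) (Cov.exists_X p (by omega) (Or.inr rfl) hS hω) hω
  by_cases hp2 : p = 2
  · subst hp2
    rcases hlift with ⟨ψ, hψ⟩ | ⟨h, -⟩
    · by_cases h8 : n = 8
      · subst h8
        exact Cases.big_two_eight hS hψ
      · exact Cases.big_two_ge (by omega) hn' hS hψ
    · omega
  · exact Cases.big_odd p hp2 (by omega) hS.inj

end Cfsg.Agent.H163.E6
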