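import Mathlib
import Cfsg.Agent.H163.E6.Semi
import Cfsg.Agent.H944.E6TwC

/-! # `Semi` for `²E₆(q)` (helper163) -/

set_option autoImplicit false

namespace Cfsg.Agent.H163.E6.Tw

open Cfsg Cfsg.Lie Module
open Cfsg.Agent.ChevalleyStructure
open Cfsg.Agent.H944.E6Tw

universe u

theorem semi {K : Type u} [Field K] [Fintype K] {q : ℕ} (hq : IsPrimePow q) (hK : Fintype.card K = q ^ 2)
    {A : Type*} [Group A] (hA : commutator A = ⊤)
    (ψ : A →* ↥(Cfsg.Lie.twistedE6 K q)) : Semi q ((incl K q).comp ψ) := by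
  obtain ⟨φ, hφ, hqq⟩ := TwE6Basic.exists_frob hq hK
  have hB := Bgrp_le_Gs hφ hqq hA ψ
  have hφφ : ∀ t : K, φ (φ t) = t := fun t => by rw [hφ, hφ, hqq]
  refine ⟨J φ, J_add φ, fun c x => by rw [J_smul, hφ], J_J φ hφφ, sh_J φ, cr_J φ, fun x y => by rw [tf_J, hφ],
    fun x => by rw [cubicT_J, hφ], fun g hg x => ⟨V_J φ (hB hg) x, V'_J φ (hB hg) x⟩⟩

end Cfsg.Agent.H163.E6.Tw
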